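import Cfsg.Agent.H851.Dg.Defs
import Cfsg.Agent.H819.BS.Cyc
import Cfsg.Agent.S5713

/-!
# S5733: the primitive subgroups of the alternating groups (helper819)

`alt_prim` : a proper primitive subgroup `K` of `A_n`, `n` large, has at least `|A_n| / 200` derangements on `A_n / K`.
-/

set_option autoImplicit false

namespace Cfsg.Agent.H819.BS

open Equiv Equiv.Perm
open Cfsg.Agent.H851.Dg (nd)

/-- the small degrees do not occur in primitive groups -/
theorem lt_support {n : ℕ} {K : Subgroup (alternatingGroup (Fin n))} (hK : K ≠ ⊤)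
    (hprim : MulAction.IsPreprimitive K (Fin n)) {x : alternatingGroup (Fin n)} (hx : x ∈ K) (hx1 : x ≠ 1) :
    (Real.sqrt n - 1) / 2 ≤ ((x : Perm (Fin n)).support.card : ℝ) := by
  have hA : ¬ alternatingGroup (Fin n) ≤ (MulAction.toPermHom K (Fin n)).range := by
    intro h
    apply hK
    rw [eq_top_iff]
    intro a _
    obtain ⟨k, hk⟩ := h a.2
    have h1 : (k : alternatingGroup (Fin n)) = a := Subtype.ext (Equiv.ext fun i => by
      have := congrArg (fun f : Perm (Fin n) => f i) hk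
      exact this)
    rw [← h1]
    exact k.2
  have h := Cfsg.Agent.S5713.result (G := K) (Ω := Fin n) hprim hA ⟨x, hx⟩ (fun h => hx1 (congrArg Subtype.val h))
  rw [Fintype.card_fin] at h
  have h1 : Nat.card (MulAction.fixedBy (Fin n) (⟨x, hx⟩ : K)) + (x : Perm (Fin n)).support.card = n := by
    have h2 : Nat.card (MulAction.fixedBy (Fin n) (⟨x, hx⟩ : K)) = ((x : Perm (Fin n)).supportᶜ).card := by
      rw [← Nat.card_eq_finsetCard]
      refine Nat.card_congr (Equiv.subtypeEquivRight fun i => ?_)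
      rw [Finset.mem_compl, Equiv.Perm.mem_support, not_not]
      rfl
    rw [h2, Finset.card_compl_add_card, Fintype.card_fin]
  have h3 : (Nat.card (MulAction.fixedBy (Fin n) (⟨x, hx⟩ : K)) : ℝ) + (x : Perm (Fin n)).support.card = n := by
    exact_mod_cast h1
  linarith

theorem nd_ge {n M : ℕ} {K : Subgroup (alternatingGroup (Fin n))} (hK : K ≠ ⊤)
    (hprim : MulAction.IsPreprimitive K (Fin n)) (hM : (M : ℝ) < (Real.sqrt n - 1) / 2) :
    Nat.card {σ : Perm (Fin n) // sign σ = 1 ∧ ∃ k : ℕ, σ ^ k ≠ 1 ∧ (σ ^ k).support.card ≤ M} ≤ nd K := by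
  refine Nat.card_le_card_of_injective
    (fun σ : {σ : Perm (Fin n) // sign σ = 1 ∧ ∃ k : ℕ, σ ^ k ≠ 1 ∧ (σ ^ k).support.card ≤ M} =>
      (⟨⟨σ.1, mem_alternatingGroup.2 σ.2.1⟩, ?_⟩ :
        {x : alternatingGroup (Fin n) // ∀ g : alternatingGroup (Fin n), g * x * g⁻¹ ∉ K})) ?_
  · intro g hg
    obtain ⟨k, hk1, hk2⟩ := σ.2.2
    have h1 := K.pow_mem hg k
    rw [conj_pow] at h1
    have h2 := lt_support hK hprim h1 (fun h => hk1 (by
      rw [conj_eq_one_iff] at h
      exact congrArg Subtype.val h))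
    have h3 : (((g * (⟨σ.1, mem_alternatingGroup.2 σ.2.1⟩ : alternatingGroup (Fin n)) ^ k * g⁻¹ :
        alternatingGroup (Fin n)) : Perm (Fin n))).support.card = ((σ : Perm (Fin n)) ^ k).support.card := by
      show ((g : Perm (Fin n)) * (σ : Perm (Fin n)) ^ k * (g : Perm (Fin n))⁻¹).support.card = _
      rw [Equiv.Perm.card_support_conj]
    rw [h3] at h2
    have h4 : (((σ : Perm (Fin n)) ^ k).support.card : ℝ) ≤ M := by exact_mod_cast hk2
    linarith
  · intro a b h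
    have h1 : (⟨a.1, mem_alternatingGroup.2 a.2.1⟩ : alternatingGroup (Fin n)) =
        ⟨b.1, mem_alternatingGroup.2 b.2.1⟩ := congrArg Subtype.val h
    exact Subtype.ext (Subtype.mk.inj h1)

/-! ### numbers -/

theorem sum_eq (m p : ℕ) : ∑ j ∈ Finset.Icc 1 m, 1 / ((j : ℝ) * p) = (harmonic m : ℝ) / p := by
  rw [harmonic_eq_sum_Icc, Rat.cast_sum, Finset.sum_div]
  refine Finset.sum_congr rfl fun j _ => ?_
  rw [Rat.cast_inv, Rat.cast_natCast, one_div, mul_inv, div_eq_mul_inv]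

theorem log_100 : Real.log 100 ≤ 5 := by
  rw [Real.log_le_iff_le_exp (by norm_num)]
  have h1 : Real.exp 5 = Real.exp 1 ^ 5 := by rw [← Real.exp_nat_mul]; norm_num
  have h2 : (2.7 : ℝ) ≤ Real.exp 1 := by
    have := Real.exp_one_gt_d9
    linarith
  rw [h1]
  calc (100 : ℝ) ≤ 2.7 ^ 5 := by norm_num
    _ ≤ Real.exp 1 ^ 5 := pow_le_pow_left₀ (by norm_num) h2 5

theorem exists_prime {n : ℕ} (hn : Real.exp 50 ≤ n) : ∃ p J : ℕ, p.Prime ∧ J * p + 2 ≤ n ∧
    ((J * p : ℕ) : ℝ) < (Real.sqrt n - 1) / 2 ∧ ∑ j ∈ Finset.Icc 1 (n / p), 1 / ((j : ℝ) * p) ≤ 1 / 4 ∧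
      1 / 100 ≤ ∑ j ∈ Finset.Icc 1 J, 1 / ((j : ℝ) * p) := by
  have hn0 : (0 : ℝ) < n := (Real.exp_pos _).trans_le hn
  have hn0' : 0 < n := by exact_mod_cast hn0
  set L := Real.log n with hL
  have hL50 : 50 ≤ L := by
    rw [hL, Real.le_log_iff_exp_le hn0]
    exact hn
  obtain ⟨p, hp, hlt, hle⟩ := Nat.exists_prime_lt_and_le_two_mul ⌈4 * (1 + L)⌉₊
    (by rw [Ne, Nat.ceil_eq_zero]; linarith)
  have hp4 : 4 * (1 + L) ≤ p := (Nat.le_ceil _).trans (by exact_mod_cast hlt.le)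
  have hp8 : (p : ℝ) ≤ 8 * L + 10 := by
    have h1 : (p : ℝ) ≤ 2 * (⌈4 * (1 + L)⌉₊ : ℝ) := by exact_mod_cast hle
    have h2 := (Nat.ceil_lt_add_one (a := 4 * (1 + L)) (by linarith)).le
    linarith
  have hp0 : (0 : ℝ) < p := by linarith
  -- the square root
  set r := Real.sqrt n with hr
  have hr0 : 0 < r := Real.sqrt_pos.2 hn0
  have hrr : r * r = n := Real.mul_self_sqrt hn0.le
  have hlogr : Real.log r = L / 2 := by rw [hr, Real.log_sqrt hn0.le]
  have hr4 : 4 ≤ r := by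
    rw [← Real.log_le_log_iff (by norm_num) hr0, hlogr]
    have h1 : Real.log 4 ≤ Real.log 100 := Real.log_le_log (by norm_num) (by norm_num)
    linarith [log_100]
  refine ⟨p, ⌊(r - 2) / (2 * p)⌋₊, hp, ?_, ?_, ?_, ?_⟩
  · have h1 : ((⌊(r - 2) / (2 * p)⌋₊ : ℕ) : ℝ) ≤ (r - 2) / (2 * p) := Nat.floor_le (by
      apply div_nonneg <;> linarith)
    rw [le_div_iff₀ (by linarith)] at h1
    have h2 : ((⌊(r - 2) / (2 * p)⌋₊ * p + 2 : ℕ) : ℝ) ≤ n := by
      push_cast
      nlinarith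
    exact_mod_cast h2
  · have h1 : ((⌊(r - 2) / (2 * p)⌋₊ : ℕ) : ℝ) ≤ (r - 2) / (2 * p) := Nat.floor_le (by
      apply div_nonneg <;> linarith)
    rw [le_div_iff₀ (by linarith)] at h1
    push_cast
    linarith
  · rw [sum_eq, div_le_iff₀ hp0]
    have h1 := harmonic_le_one_add_log (n / p)
    have h2 : Real.log ((n / p : ℕ) : ℝ) ≤ L := by
      rcases Nat.eq_zero_or_pos (n / p) with h0 | h0
      · rw [h0, Nat.cast_zero, Real.log_zero]
        linarith
      · exact Real.log_le_log (by exact_mod_cast h0) (by exact_mod_cast Nat.div_le_self n p)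
    linarith
  · rw [sum_eq, le_div_iff₀ hp0]
    have h1 := log_add_one_le_harmonic ⌊(r - 2) / (2 * p)⌋₊
    have h2 : (r - 2) / (2 * p) < ((⌊(r - 2) / (2 * p)⌋₊ + 1 : ℕ) : ℝ) := by
      push_cast
      exact Nat.lt_floor_add_one _
    have h3 : r / (4 * p) ≤ (r - 2) / (2 * p) := by
      rw [div_le_div_iff₀ (by linarith) (by linarith)]
      nlinarith
    have h4 : Real.log (r / (4 * p)) ≤ Real.log ((⌊(r - 2) / (2 * p)⌋₊ + 1 : ℕ) : ℝ) :=
      Real.log_le_log (by positivity) (h3.trans h2.le)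
    rw [Real.log_div hr0.ne' (by positivity), hlogr] at h4
    have h5 : Real.log (4 * p) ≤ (32 * L + 40) / 100 + 4 := by
      have h6 : Real.log (4 * p) ≤ Real.log (32 * L + 40) := Real.log_le_log (by positivity) (by linarith)
      have h7 : Real.log (32 * L + 40) = Real.log ((32 * L + 40) / 100) + Real.log 100 := by
        rw [← Real.log_mul (by positivity) (by norm_num)]
        congr 1
        ring
      have h8 := Real.log_le_sub_one_of_pos (x := (32 * L + 40) / 100) (by positivity)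
      linarith [log_100]
    linarith

/-- **Primitive subgroups of the alternating groups.** -/
theorem alt_prim : ∃ c : ℝ, 0 < c ∧ ∃ N0 : ℕ, ∀ n : ℕ, N0 ≤ n → ∀ K : Subgroup (alternatingGroup (Fin n)),
    K ≠ ⊤ → MulAction.IsPreprimitive K (Fin n) → c * (Nat.card (alternatingGroup (Fin n)) : ℝ) ≤ nd K := by
  refine ⟨1 / 200, by norm_num, ⌈Real.exp 50⌉₊, fun n hn K hK hprim => ?_⟩
  obtain ⟨p, J, hp, h1, h2, h3, h4⟩ := exists_prime (n := n) ((Nat.le_ceil _).trans (by exact_mod_cast hn))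
  have h5 := card_glue (α := Fin n) hp (J := J) (by rwa [Fintype.card_fin]) (by rwa [Fintype.card_fin])
  have h6 := nd_ge hK hprim h2
  rw [Fintype.card_fin] at h5
  have h7 : (2 : ℝ) * Nat.card (alternatingGroup (Fin n)) = (n.factorial : ℝ) := by
    have : Nontrivial (Fin n) := Fin.nontrivial_iff_two_le.2 (by omega)
    have h := two_mul_card_alternatingGroup (α := Fin n)
    rw [Fintype.card_perm, Fintype.card_fin] at h
    rw [Nat.card_eq_fintype_card]
    exact_mod_cast h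
  have h8 : (n.factorial : ℝ) / 4 * (1 / 100) ≤ (n.factorial : ℝ) / 4 * ∑ j ∈ Finset.Icc 1 J, 1 / ((j : ℝ) * p) :=
    mul_le_mul_of_nonneg_left h4 (by positivity)
  have h9 : (Nat.card {σ : Perm (Fin n) // sign σ = 1 ∧ ∃ k : ℕ, σ ^ k ≠ 1 ∧ (σ ^ k).support.card ≤ J * p} : ℝ) ≤
      nd K := by exact_mod_cast h6
  linarith

end Cfsg.Agent.H819.BS
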